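import Mathlib

set_option autoImplicit false

/-!
# Solvable subgroups of the small Ree groups (S2361): pure group theory packages

Every solvable subgroup `S` of a finite group `G` with the listed local properties lies in the
normaliser of a Sylow `2`-subgroup, of a Sylow `3`-subgroup, or of a subgroup with a property
`Good`.  The packages are statements about arbitrary finite groups.
-/

universe u

namespace Cfsg.Agent.Lib.Helper17.ReeSolv

/-- (SOLV) the last two non-trivial terms of the derived series of a solvable subgroup `S ≠ ⊥`: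
a commutative `D ≠ ⊥` normalised by `S` and, unless `D = S`, a non-commutative `N ≤ S` all of
whose commutators lie in `D` -/
def PkgSolv : Prop :=
  ∀ (G : Type u) [Group G] [Finite G] (S : Subgroup G), Group.IsSolvable ↥S → S ≠ ⊥ →
    ∃ D : Subgroup G, D ≤ S ∧ D ≠ ⊥ ∧ (∀ s ∈ S, ∀ x ∈ D, s * x * s⁻¹ ∈ D) ∧
      (∀ x ∈ D, ∀ y ∈ D, x * y = y * x) ∧
      (D = S ∨ ∃ N : Subgroup G, N ≤ S ∧ (∀ x ∈ N, ∀ y ∈ N, x * y * x⁻¹ * y⁻¹ ∈ D) ∧
        ¬ (∀ x ∈ N, ∀ y ∈ N, x * y = y * x))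

/-- (NO4) in a group without elements of order `4`, a subgroup all of whose commutators lie in
`{1, t}`, for an element `t` of square `1` commuting with it, is commutative -/
def PkgNo4 : Prop :=
  ∀ (G : Type u) [Group G] [Finite G] (N : Subgroup G) (t : G), (∀ x : G, orderOf x ≠ 4) →
    t * t = 1 → (∀ x ∈ N, t * x = x * t) →
    (∀ x ∈ N, ∀ y ∈ N, x * y * x⁻¹ * y⁻¹ = 1 ∨ x * y * x⁻¹ * y⁻¹ = t) →
    ∀ x ∈ N, ∀ y ∈ N, x * y = y * x

/-- (OMEGA) the elements of order dividing `p` of a commutative subgroup `D` of order divisible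
by the prime `p`: a non-trivial subgroup of exponent `p`, normalised by whatever normalises
`D` -/
def PkgOmega : Prop :=
  ∀ (G : Type u) [Group G] [Finite G] (D : Subgroup G) (p : ℕ), p.Prime → p ∣ Nat.card ↥D →
    (∀ x ∈ D, ∀ y ∈ D, x * y = y * x) →
    ∃ M : Subgroup G, M ≤ D ∧ M ≠ ⊥ ∧ (∀ x ∈ M, x ^ p = 1) ∧
      ∀ g : G, (∀ x ∈ D, g * x * g⁻¹ ∈ D) → ∀ x ∈ M, g * x * g⁻¹ ∈ M

/-- (CYCP) a non-trivial subgroup of exponent `p` of a group with cyclic Sylow `p`-subgroups is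
generated by an element of order `p` -/
def PkgCycP : Prop :=
  ∀ (G : Type u) [Group G] [Finite G] (p : ℕ) [Fact p.Prime] (M : Subgroup G),
    (∀ P : Sylow p G, IsCyclic ↥(P : Subgroup G)) → M ≠ ⊥ → (∀ x ∈ M, x ^ p = 1) →
    ∃ x : G, orderOf x = p ∧ M = Subgroup.zpowers x

/-- (TWO) a non-trivial subgroup of exponent `2` of a group with Sylow `2`-subgroups of order `8`
has order `2` or `4`, or is a Sylow `2`-subgroup; and it lies in a Sylow `2`-subgroup -/
def PkgTwo : Prop :=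
  ∀ (G : Type u) [Group G] [Finite G] (D : Subgroup G),
    (∀ P : Sylow 2 G, Nat.card ↥(P : Subgroup G) = 8) → D ≠ ⊥ → (∀ x ∈ D, x * x = 1) →
    (Nat.card ↥D = 2 ∨ Nat.card ↥D = 4 ∨ ∃ P : Sylow 2 G, D = (P : Subgroup G)) ∧
      ∃ P : Sylow 2 G, D ≤ (P : Subgroup G)

/-- the conclusion for a subgroup `S`: it lies in the normaliser of a Sylow `2`-subgroup, of a
Sylow `3`-subgroup, or of a subgroup with the property `Good` -/
def Concl (G : Type u) [Group G] (Good : Subgroup G → Prop) (S : Subgroup G) : Prop :=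
  ∃ A : Subgroup G, S ≤ Subgroup.normalizer (A : Set G) ∧
    ((∃ P : Sylow 2 G, A = P) ∨ (∃ P : Sylow 3 G, A = P) ∨ Good A)

/-- (MAIN) the assembly: solvable subgroups of a finite group without elements of order `4`, with
Sylow `2`-subgroups of order `8`, with Sylow `3`-subgroups that are trivial intersection sets,
with cyclic Sylow `p`-subgroups for `p > 3` whose subgroups of order `p` have normalisers inside
normalisers of `Good` subgroups, as do the normalisers of four-groups -/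
def PkgMain : Prop :=
  PkgSolv.{u} → PkgNo4.{u} → PkgOmega.{u} → PkgCycP.{u} → PkgTwo.{u} →
  ∀ (G : Type u) [Group G] [Finite G] (Good : Subgroup G → Prop),
    (∀ x : G, orderOf x ≠ 4) →
    (∀ P : Sylow 2 G, Nat.card ↥(P : Subgroup G) = 8) →
    (∀ (P : Sylow 3 G) (g x : G), x ∈ (P : Subgroup G) → x ≠ 1 →
      g * x * g⁻¹ ∈ (P : Subgroup G) → g ∈ Subgroup.normalizer ((P : Subgroup G) : Set G)) →
    (∀ (p : ℕ) [Fact p.Prime], 3 < p → ∀ P : Sylow p G, IsCyclic ↥(P : Subgroup G)) →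
    (∀ p : ℕ, p.Prime → 3 < p → ∀ x : G, orderOf x = p →
      ∃ A : Subgroup G, Good A ∧
        Subgroup.normalizer (Subgroup.zpowers x : Set G) ≤ Subgroup.normalizer (A : Set G)) →
    (∀ W : Subgroup G, Nat.card ↥W = 4 → (∀ x ∈ W, x * x = 1) →
      ∃ A : Subgroup G, Good A ∧
        Subgroup.normalizer (W : Set G) ≤ Subgroup.normalizer (A : Set G)) →
    ∀ S : Subgroup G, Group.IsSolvable ↥S → Concl G Good S

/-- (ARP) a prime `p > 3` dividing the order of the small Ree group divides the order of one of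
the four cyclic Hall subgroups -/
def PkgArP : Prop :=
  ∀ m p : ℕ, 1 ≤ m → p.Prime → 3 < p →
    p ∣ (3 ^ (2 * m + 1)) ^ 3 * ((3 ^ (2 * m + 1)) ^ 3 + 1) * (3 ^ (2 * m + 1) - 1) →
    p ∣ (3 ^ (2 * m + 1) - 1) / 2 ∨ p ∣ (3 ^ (2 * m + 1) + 1) / 4 ∨
      p ∣ 3 ^ (2 * m + 1) - 3 ^ (m + 1) + 1 ∨ p ∣ 3 ^ (2 * m + 1) + 3 ^ (m + 1) + 1

/-- (AR3) the `3`-part of the order of the small Ree group -/
def PkgAr3 : Prop :=
  ∀ m : ℕ, 1 ≤ m →
    ((3 ^ (2 * m + 1)) ^ 3 * ((3 ^ (2 * m + 1)) ^ 3 + 1) * (3 ^ (2 * m + 1) - 1)).factorization 3 =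
      3 * (2 * m + 1)

end Cfsg.Agent.Lib.Helper17.ReeSolv
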